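import Cfsg.Agent.CosetEnum.Fi23.Class
import Cfsg.Agent.Fi23Solv.DataInfo
import Cfsg.Agent.Fi23Solv.DataNodes
import Cfsg.Agent.Fi23Solv.DataOrb
import Cfsg.Agent.Fi23Solv.DataMisc
import Cfsg.Agent.Fi23Solv.DataCases

/-!
The action of Fi23 on the numbers below 31671, transpositions as a function of points, and the
stabilizer of a set of 324 transpositions.
-/

set_option autoImplicit false
set_option maxRecDepth 20000

namespace CfsgLib.Fi23Solv

open CfsgLib.CosetEnum CfsgLib.CosetEnum.Fi23
open scoped commutatorElement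

local notation "G" => Cfsg.Spor.Fi23

/-- image of a point under a word, read from the left -/
noncomputable def run (w : List ℕ) (i : ℕ) : ℕ := runT Tab.perm.T Tab.perm.L w i

/-- letters are in range -/
def okW (w : List ℕ) : Bool := w.all fun x => x.blt 10

theorem okW_iff {w : List ℕ} : okW w = true ↔ ∀ x ∈ w, x < 10 := by
  simp [okW, List.all_eq_true, Nat.blt, Nat.ble_eq]

/-- the action on natural numbers -/
noncomputable def act (g : G) (i : ℕ) : ℕ :=
  if h : i < 31671 then ((pi g ⟨i, h⟩ : Fin Tab.perm.n) : ℕ) else i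

theorem act_val (g : G) (i : Fin Tab.perm.n) : act g i = (pi g i : Fin Tab.perm.n) := by
  rw [act, dif_pos (show (i : ℕ) < 31671 from i.2)]

theorem act_pt (g : G) {i : ℕ} (h : i < 31671) : (pi g (pt i h) : ℕ) = act g i := by
  rw [act, dif_pos h]; rfl

theorem act_lt (g : G) {i : ℕ} (h : i < 31671) : act g i < 31671 := by
  rw [← act_pt g h]; exact (pi g (pt i h)).2

theorem act_one (i : ℕ) : act 1 i = i := by
  by_cases h : i < 31671
  · rw [← act_pt 1 h, map_one]; rfl
  · rw [act, dif_neg h]

theorem act_mul (g h : G) (i : ℕ) : act (g * h) i = act g (act h i) := by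
  by_cases hi : i < 31671
  · rw [← act_pt (g * h) hi, ← act_pt h hi, act_val, map_mul, Equiv.Perm.mul_apply]
  · rw [act, dif_neg hi, act, act, dif_neg hi, dif_neg hi]

theorem act_inv_act (g : G) (i : ℕ) : act g⁻¹ (act g i) = i := by
  rw [← act_mul, inv_mul_cancel, act_one]

theorem act_act_inv (g : G) (i : ℕ) : act g (act g⁻¹ i) = i := by
  rw [← act_mul, mul_inv_cancel, act_one]

theorem act_inj (g : G) {i j : ℕ} (h : act g i = act g j) : i = j := by
  rw [← act_inv_act g i, h, act_inv_act]

theorem g10_inv' : ∀ x, g10 x = (g10 x)⁻¹ := g10_inv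

theorem gword_reverse (w : List ℕ) : gword g10 w.reverse = (gword g10 w)⁻¹ := by
  have e := gword_inverse g10 (fun y => y) g10_inv w
  rwa [List.map_id'] at e

theorem act_gword_inv {w : List ℕ} (hw : okW w = true) {i : ℕ} (hi : i < 31671) :
    act (gword g10 w)⁻¹ i = run w i := by
  rw [← act_pt _ hi, map_inv, pi_gword w (okW_iff.1 hw), perm_ok.gword_inv_apply w (okW_iff.1 hw)]
  rfl

theorem okW_reverse {w : List ℕ} (hw : okW w = true) : okW w.reverse = true :=
  okW_iff.2 fun x hx => okW_iff.1 hw x (List.mem_reverse.1 hx)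

theorem act_gword {w : List ℕ} (hw : okW w = true) {i : ℕ} (hi : i < 31671) :
    act (gword g10 w) i = run w.reverse i := by
  have e := act_gword_inv (okW_reverse hw) hi
  rwa [gword_reverse, inv_inv] at e

theorem run_lt {w : List ℕ} (hw : okW w = true) {i : ℕ} (hi : i < 31671) : run w i < 31671 := by
  rw [← act_gword_inv hw hi]; exact act_lt _ hi

theorem exists_to (p : ℕ) (hp : p < 31671) : ∃ g : G, act g 0 = p := by
  have hm : pt p hp ∈ MulAction.orbit pi.range P0 := orbit_top ▸ Set.mem_univ _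
  obtain ⟨⟨_, g, rfl⟩, hg⟩ := hm
  refine ⟨g, ?_⟩
  rw [← act_pt g (show (0 : ℕ) < 31671 by norm_num)]
  exact congrArg Fin.val (show pi g P0 = pt p hp from hg)

/-- the transposition of a point -/
noncomputable def tr (p : ℕ) : G :=
  if h : p < 31671 then (exists_to p h).choose * z0 * (exists_to p h).choose⁻¹ else 1

theorem tr_act_zero (g : G) : tr (act g 0) = g * z0 * g⁻¹ := by
  have hp : act g 0 < 31671 := act_lt g (by norm_num)
  rw [tr, dif_pos hp]
  have hc := (exists_to _ hp).choose_spec
  generalize (exists_to _ hp).choose = c at hc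
  have hmem : g⁻¹ * c ∈ Hs := by
    rw [mem_Hs_iff]
    refine Fin.ext ?_
    rw [← act_val]
    show act (g⁻¹ * c) 0 = 0
    rw [act_mul, hc, act_inv_act]
  calc c * z0 * c⁻¹ = g * ((g⁻¹ * c) * z0) * (g⁻¹ * c)⁻¹ * g⁻¹ := by group
    _ = g * (z0 * (g⁻¹ * c)) * (g⁻¹ * c)⁻¹ * g⁻¹ := by rw [commute_of_mem hmem]
    _ = g * z0 * g⁻¹ := by group

theorem tr_conj (a : G) {p : ℕ} (hp : p < 31671) : a * tr p * a⁻¹ = tr (act a p) := by
  obtain ⟨g, rfl⟩ := exists_to p hp
  rw [← act_mul, tr_act_zero, tr_act_zero]; group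

/-- the point of the first generator -/
def pA : ℕ := 11589

theorem run_uW : Nat.beq (run uW 0) pA = true := by decide +kernel

theorem tr_pA : tr pA = g10 0 := by
  have h : act (gword g10 uW)⁻¹ 0 = pA := by
    rw [act_gword_inv (okW_iff.2 uW_lt) (by norm_num)]
    exact Nat.eq_of_beq_eq_true run_uW
  rw [← h, tr_act_zero, inv_inv, g10_zero_eq]

/-- the word of the transposition at the end of a path -/
def dW (w : List ℕ) : List ℕ := w.reverse ++ ([0] ++ w)

theorem okW_dW {w : List ℕ} (hw : okW w = true) : okW (dW w) = true := by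
  refine okW_iff.2 fun x hx => ?_
  simp only [dW, List.mem_append, List.mem_reverse, List.mem_singleton] at hx
  rcases hx with h | h | h
  exacts [okW_iff.1 hw x h, h ▸ by norm_num, okW_iff.1 hw x h]

theorem dW_reverse (w : List ℕ) : (dW w).reverse = dW w := by simp [dW]

theorem gword_dW {w : List ℕ} (hw : okW w = true) : gword g10 (dW w) = tr (run w pA) := by
  rw [← act_gword_inv hw (show pA < 31671 by decide), ← tr_conj _ (show pA < 31671 by decide),
    tr_pA, inv_inv, dW, gword_app, gword_app, gword_one, gword_reverse, mul_assoc]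

theorem act_tr {w : List ℕ} (hw : okW w = true) {i : ℕ} (hi : i < 31671) :
    act (tr (run w pA)) i = run (dW w) i := by
  rw [← gword_dW hw, act_gword (okW_dW hw) hi, dW_reverse]

/-- the set of 324 points -/
noncomputable def inT (i : ℕ) : Bool := Nat.beq (info i % 8) 0

/-- the index of a point of the set -/
noncomputable def ti (i : ℕ) : ℕ := info i >>> 16

theorem tp_check : allBelow (fun j => (tp j).blt 31671 && inT (tp j) && Nat.beq (ti (tp j)) j) 324
    = true := by decide +kernel

theorem tp_spec {j : ℕ} (hj : j < 324) : tp j < 31671 ∧ inT (tp j) = true ∧ ti (tp j) = j := by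
  have := (Model.allBelow_iff _ _).1 tp_check j hj
  simp only [Bool.and_eq_true, Nat.blt, Nat.ble_eq] at this
  exact ⟨this.1.1, this.1.2, Nat.eq_of_beq_eq_true this.2⟩

theorem tp_inj {i j : ℕ} (hi : i < 324) (hj : j < 324) (h : tp i = tp j) : i = j := by
  rw [← (tp_spec hi).2.2, h, (tp_spec hj).2.2]

theorem ti_check : allBelow (fun i => !(inT i) || ((ti i).blt 324 && Nat.beq (tp (ti i)) i)) 31671
    = true := by decide +kernel

theorem ti_spec {i : ℕ} (hi : i < 31671) (h : inT i = true) : ti i < 324 ∧ tp (ti i) = i := by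
  have := (Model.allBelow_iff _ _).1 ti_check i hi
  simp only [h, Bool.not_true, Bool.false_or, Bool.and_eq_true, Nat.blt, Nat.ble_eq] at this
  exact ⟨this.1, Nat.eq_of_beq_eq_true this.2⟩

/-- the stabilizer of the set -/
noncomputable def H : Subgroup G where
  carrier := {g | ∀ i < 31671, inT (act g i) = inT i}
  mul_mem' {a b} ha hb i hi := by rw [act_mul, ha _ (act_lt b hi), hb i hi]
  one_mem' i _ := by rw [act_one]
  inv_mem' {a} ha i hi := by
    have h := ha (act a⁻¹ i) (act_lt _ hi)
    rwa [act_act_inv, eq_comm] at h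

theorem mem_H_of_maps {g : G} (h : ∀ j < 324, inT (act g (tp j)) = true) : g ∈ H := by
  let f : Fin 324 → Fin 324 := fun j =>
    ⟨ti (act g (tp j)), (ti_spec (act_lt g (tp_spec j.2).1) (h j j.2)).1⟩
  have hf : Function.Injective f := by
    intro a b hab
    have e : ti (act g (tp a)) = ti (act g (tp b)) := congrArg Fin.val hab
    have e2 := congrArg tp e
    rw [(ti_spec (act_lt g (tp_spec a.2).1) (h a a.2)).2,
      (ti_spec (act_lt g (tp_spec b.2).1) (h b b.2)).2] at e2
    exact Fin.ext (tp_inj a.2 b.2 (act_inj g e2))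
  intro i hi
  rw [Bool.eq_iff_iff]
  constructor
  · intro hg
    have hs := ti_spec (act_lt g hi) hg
    obtain ⟨j, hj⟩ := Finite.injective_iff_surjective.1 hf ⟨_, hs.1⟩
    have e : ti (act g (tp j)) = ti (act g i) := congrArg Fin.val hj
    have e2 := congrArg tp e
    rw [(ti_spec (act_lt g (tp_spec j.2).1) (h j j.2)).2, hs.2] at e2
    rw [← act_inj g e2]
    exact (tp_spec j.2).2.1
  · intro hT
    obtain ⟨hj, hji⟩ := ti_spec hi hT
    rw [← hji]
    exact h _ hj

theorem inT_act {g : G} (hg : g ∈ H) {i : ℕ} (hi : i < 31671) : inT (act g i) = inT i := hg i hi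

theorem conj_mem_H_iff {g : G} (hg : g ∈ H) {j : ℕ} (hj : j < 324) :
    act g (tp j) < 31671 ∧ inT (act g (tp j)) = true :=
  ⟨act_lt g (tp_spec hj).1, by rw [inT_act hg (tp_spec hj).1, (tp_spec hj).2.1]⟩

/-- the action on the indices of the set is given by a table -/
def HasTab (g : G) (f : ℕ → ℕ) : Prop := ∀ j < 324, f j < 324 ∧ act g (tp j) = tp (f j)

theorem HasTab.mem {g : G} {f : ℕ → ℕ} (h : HasTab g f) : g ∈ H :=
  mem_H_of_maps fun j hj => by rw [(h j hj).2]; exact (tp_spec (h j hj).1).2.1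

theorem HasTab.mul {g h : G} {f k : ℕ → ℕ} (hg : HasTab g f) (hh : HasTab h k) :
    HasTab (g * h) (fun j => f (k j)) := fun j hj =>
  ⟨(hg _ (hh j hj).1).1, by rw [act_mul, (hh j hj).2, (hg _ (hh j hj).1).2]⟩

theorem HasTab.one : HasTab 1 (fun j => j) := fun j hj => ⟨hj, act_one _⟩

theorem HasTab.congr {g : G} {f k : ℕ → ℕ} (hg : HasTab g f) (h : ∀ j < 324, f j = k j) :
    HasTab g k := fun j hj => h j hj ▸ hg j hj

end CfsgLib.Fi23Solv
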