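import Cfsg.Agent.Fi23Solv.Nodes

/-!
Orbit representatives of the points outside the set.
-/

set_option autoImplicit false
set_option maxRecDepth 20000

namespace CfsgLib.Fi23Solv

open CfsgLib.CosetEnum CfsgLib.CosetEnum.Fi23

/-- one point of the forest -/
noncomputable def forestOK (i : ℕ) : Bool :=
    inT i || (bif Nat.beq ((info i >>> 7) % 256) 0 then
      Nat.beq (reps.getD (info i % 8 - 1) 0) i
    else (info i >>> 16).blt 31671 && ((info i >>> 3) % 16).blt nT &&
      Nat.beq ((info (info i >>> 16) >>> 7) % 256 + 1) ((info i >>> 7) % 256) &&
      !(inT (info i >>> 16)) &&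
      Nat.beq (info (info i >>> 16) % 8) (info i % 8) &&
      Nat.beq (run (letterAt ((info i >>> 3) % 16)) (info i >>> 16)) i)

theorem forest0 : allFrom forestOK 0 4000 = true := by decide +kernel

theorem forest1 : allFrom forestOK 4000 4000 = true := by decide +kernel

theorem forest2 : allFrom forestOK 8000 4000 = true := by decide +kernel

theorem forest3 : allFrom forestOK 12000 4000 = true := by decide +kernel

theorem forest4 : allFrom forestOK 16000 4000 = true := by decide +kernel

theorem forest5 : allFrom forestOK 20000 4000 = true := by decide +kernel

theorem forest6 : allFrom forestOK 24000 4000 = true := by decide +kernel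

theorem forest7 : allFrom forestOK 28000 3671 = true := by decide +kernel

theorem forest_spec {i : ℕ} (hi : i < 31671) : forestOK i = true := by
  by_cases h0 : i < 4000
  · exact rowFrom forest0 (by omega) (by omega)
  by_cases h1 : i < 8000
  · exact rowFrom forest1 (by omega) (by omega)
  by_cases h2 : i < 12000
  · exact rowFrom forest2 (by omega) (by omega)
  by_cases h3 : i < 16000
  · exact rowFrom forest3 (by omega) (by omega)
  by_cases h4 : i < 20000
  · exact rowFrom forest4 (by omega) (by omega)
  by_cases h5 : i < 24000
  · exact rowFrom forest5 (by omega) (by omega)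
  by_cases h6 : i < 28000
  · exact rowFrom forest6 (by omega) (by omega)
  exact rowFrom forest7 (by omega) (by omega)

end CfsgLib.Fi23Solv
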