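import Cfsg.Agent.Fi23Solv.Nodes

/-!
The kernel of the action on the set, orbits of point stabilizers, and the subgroups of the
polycyclic sequence.
-/

set_option autoImplicit false
set_option maxRecDepth 20000

namespace CfsgLib.Fi23Solv

open CfsgLib.CosetEnum CfsgLib.CosetEnum.Fi23
open scoped commutatorElement

local notation "G" => Cfsg.Spor.Fi23

/-- the element of the stabilizer realising a node -/
noncomputable def el (i : ℕ) : H := if h : i < nodes then (exists_node i h).choose else 1

theorem el_spec {i : ℕ} (hi : i < nodes) :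
    el i ∈ derivedSeries H (olv i) ∧ HasTab (el i : G) (tb i) := by
  rw [el, dif_pos hi]; exact (exists_node i hi).choose_spec

theorem pcs_check : pcs.all (fun p => p.blt nodes) = true := by decide +kernel

theorem pcs_lt {p : ℕ} (hp : p ∈ pcs) : p < nodes := by
  have := List.all_eq_true.1 pcs_check p hp
  simpa [Nat.blt, Nat.ble_eq] using this

/-- the elements of the polycyclic sequence, bottom first -/
noncomputable def e (k : ℕ) : G := if h : k < pcs.length then (el pcs[k] : G) else 1

/-- their tables -/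
noncomputable def etab (k j : ℕ) : ℕ := bif k.blt pcs.length then tb (pcs.getD k 0) j else j

theorem e_tab (k : ℕ) : HasTab (e k) (etab k) := by
  by_cases h : k < pcs.length
  · have hb : k.blt pcs.length = true := by simpa [Nat.blt, Nat.ble_eq] using h
    rw [e, dif_pos h]
    refine (el_spec (pcs_lt (List.getElem_mem h))).2.congr fun j _ => ?_
    simp [etab, hb, List.getD_eq_getElem?_getD, h]
  · have hb : k.blt pcs.length = false := by
      cases hc : k.blt pcs.length
      · rfl
      · exact absurd (by simpa [Nat.blt, Nat.ble_eq] using hc) h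
    rw [e, dif_neg h]
    exact HasTab.one.congr fun j _ => by simp [etab, hb]

theorem e_mem (k : ℕ) : e k ∈ H := (e_tab k).mem

/-- value of a word in the sequence -/
noncomputable def wval (w : List ℕ) : G := (w.map e).prod

/-- table of a word in the sequence -/
noncomputable def wtab : List ℕ → ℕ → ℕ
  | [], j => j
  | k :: w, j => etab k (wtab w j)

theorem wtab_tab : ∀ w, HasTab (wval w) (wtab w)
  | [] => HasTab.one
  | k :: w => by
    rw [wval, List.map_cons, List.prod_cons]
    exact (e_tab k).mul (wtab_tab w)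

/-- the seven base points as a list -/
def bp (k : ℕ) : ℕ := basB.getD k 0

theorem basB_check : basB.all (fun b => b.blt 31671 && inT b) = true := by decide +kernel

theorem basB_spec {b : ℕ} (hb : b ∈ basB) : b < 31671 ∧ inT b = true := by
  have := List.all_eq_true.1 basB_check b hb
  simpa [Nat.blt, Nat.ble_eq] using this

/-- agreement of two words on the base -/
noncomputable def sameB (v w : List ℕ) : Bool :=
  basB.all fun b => Nat.beq (wtab v (ti b)) (wtab w (ti b))

theorem sameB_spec {v w : List ℕ} (h : sameB v w = true) {b : ℕ} (hb : b ∈ basB) :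
    act ((wval w)⁻¹ * wval v) b = b := by
  obtain ⟨hb1, hb2⟩ := basB_spec hb
  obtain ⟨hj, hjb⟩ := ti_spec hb1 hb2
  have e := Nat.eq_of_beq_eq_true (List.all_eq_true.1 h b hb)
  rw [← hjb, act_mul, (wtab_tab v _ hj).2, e, ← (wtab_tab w _ hj).2, act_inv_act]

/-- the pointwise stabilizer of some points -/
noncomputable def Fix (l : List ℕ) : Subgroup G where
  carrier := {g | ∀ p ∈ l, act g p = p}
  mul_mem' {a b} ha hb p hp := by rw [act_mul, hb p hp, ha p hp]
  one_mem' p _ := act_one p
  inv_mem' {a} ha p hp := by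
    conv_lhs => rw [← ha p hp]
    rw [act_inv_act]

theorem mem_Fix {l : List ℕ} {g : G} : g ∈ Fix l ↔ ∀ p ∈ l, act g p = p := Iff.rfl

theorem Fix_nil : Fix [] = ⊤ := eq_top_iff.2 fun g _ p hp => absurd hp List.not_mem_nil

/-- distinct images of a point under a stabilizer bound the index of the smaller stabilizer -/
theorem card_Fix_mul_le (K : Subgroup G) {l : List ℕ} {p c : ℕ} (q : ℕ → ℕ)
    (hq : ∀ i < c, ∃ g ∈ K ⊓ Fix l, act g p = q i)
    (hinj : ∀ i < c, ∀ j < c, q i = q j → i = j) :
    c * Nat.card (K ⊓ Fix (p :: l) : Subgroup G) ≤ Nat.card (K ⊓ Fix l : Subgroup G) := by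
  classical
  have := finite_fi23
  choose g hg hgq using hq
  let f : Fin c × (K ⊓ Fix (p :: l) : Subgroup G) → (K ⊓ Fix l : Subgroup G) := fun x =>
    ⟨g x.1 x.1.2 * x.2, mul_mem (hg x.1 x.1.2)
      ⟨(Subgroup.mem_inf.1 x.2.2).1, fun r hr => mem_Fix.1 (Subgroup.mem_inf.1 x.2.2).2 r (List.mem_cons_of_mem _ hr)⟩⟩
  have hf : Function.Injective f := by
    rintro ⟨i, a⟩ ⟨j, b⟩ h
    have h' : g i i.2 * (a : G) = g j j.2 * (b : G) := congrArg Subtype.val h
    have hp : q i = q j := by
      have ea := mem_Fix.1 (Subgroup.mem_inf.1 a.2).2 p List.mem_cons_self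
      have eb := mem_Fix.1 (Subgroup.mem_inf.1 b.2).2 p List.mem_cons_self
      rw [← hgq i i.2, ← hgq j j.2]
      calc act (g i i.2) p = act (g i i.2 * (a : G)) p := by rw [act_mul, ea]
        _ = act (g j j.2 * (b : G)) p := by rw [h']
        _ = act (g j j.2) p := by rw [act_mul, eb]
    have hij : i = j := Fin.ext (hinj i i.2 j j.2 hp)
    subst hij
    exact Prod.ext rfl (Subtype.ext (mul_left_cancel h'))
  have := Nat.card_le_card_of_injective f hf
  rwa [Nat.card_prod, Nat.card_fin] at this

/-- generators of an orbit fix the earlier base points -/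
noncomputable def gensOK (gs : List (List ℕ)) (l : List ℕ) : Bool :=
  gs.all fun w => okW w && l.all fun b => Nat.beq (run (dW w) b) b

/-- orbit certificate entry -/
noncomputable def linkOK (P I L : ℕ → ℕ) (gs : List (List ℕ)) (i : ℕ) : Bool :=
  (P i).blt 31671 && Nat.beq (I (P i)) i &&
  (Nat.beq i 0 || ((L i / 16).blt i && (L i % 16).blt gs.length &&
    Nat.beq (run (dW (gs.getD (L i % 16) [])) (P (L i / 16))) (P i)))

theorem orbit_step {l : List ℕ} {p c : ℕ} (P I L : ℕ → ℕ) (gs : List (List ℕ))
    (hl : ∀ b ∈ l, b < 31671) (h0 : P 0 = p) (hg : gensOK gs l = true)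
    (hlink : allBelow (linkOK P I L gs) c = true) :
    c * Nat.card (Fix (p :: l)) ≤ Nat.card (Fix l) := by
  have hspec := (Model.allBelow_iff _ _).1 hlink
  have hlink' : ∀ i < c, P i < 31671 ∧ I (P i) = i ∧ (i = 0 ∨ (L i / 16 < i ∧
      L i % 16 < gs.length ∧ run (dW (gs.getD (L i % 16) [])) (P (L i / 16)) = P i)) := by
    intro i hi
    have := hspec i hi
    simp only [linkOK, Bool.and_eq_true, Bool.or_eq_true, Nat.blt, Nat.ble_eq, Nat.beq_eq] at this
    exact ⟨this.1.1, this.1.2, this.2.imp id fun h => ⟨h.1.1, h.1.2, h.2⟩⟩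
  have key := card_Fix_mul_le ⊤ (l := l) (p := p) (c := c) P ?_ ?_
  · rwa [top_inf_eq, top_inf_eq] at key
  · intro i hi
    induction i using Nat.strong_induction_on with
    | _ i ih =>
      rcases (hlink' i hi).2.2 with h | ⟨h1, h2, h3⟩
      · exact ⟨1, one_mem _, by rw [act_one, h, h0]⟩
      obtain ⟨g, hgm, hgp⟩ := ih _ h1 (by omega)
      have hw := List.all_eq_true.1 hg _ (show gs.getD (L i % 16) [] ∈ gs by
        rw [List.getD_eq_getElem?_getD, List.getElem?_eq_getElem h2]; exact List.getElem_mem h2)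
      rw [Bool.and_eq_true] at hw
      refine ⟨tr (run (gs.getD (L i % 16) []) pA) * g, mul_mem ?_ hgm, ?_⟩
      · refine ⟨Subgroup.mem_top _, fun b hb => ?_⟩
        rw [act_tr hw.1 (hl b hb)]
        exact Nat.eq_of_beq_eq_true (List.all_eq_true.1 hw.2 b hb)
      · rw [act_mul, hgp, act_tr hw.1 (hlink' _ (lt_trans h1 hi)).1, h3]
  · intro i hi j hj h
    rw [← (hlink' i hi).2.1, h, (hlink' j hj).2.1]

/-- the stabilizers of initial parts of the base -/
noncomputable def FB (k : ℕ) : Subgroup G := Fix (basB.take k).reverse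

theorem orb_check1 : (gensOK orbG1 [bp 0] && Nat.beq (orbP1 0) (bp 1) &&
    allBelow (linkOK orbP1 orbInv1 orbL1 orbG1) 3510) = true := by decide +kernel

theorem orb_check2 : (gensOK orbG2 [bp 1, bp 0] && Nat.beq (orbP2 0) (bp 2) &&
    allBelow (linkOK orbP2 orbInv2 orbL2 orbG2) 2816) = true := by decide +kernel

theorem orb_check3 : (gensOK orbG3 [bp 2, bp 1, bp 0] && Nat.beq (orbP3 0) (bp 3) &&
    allBelow (linkOK orbP3 orbInv3 orbL3 orbG3) 1680) = true := by decide +kernel

theorem card_F4 : Nat.card (Fix [bp 3, bp 2, bp 1, bp 0]) ≤ 7776 := by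
  have := finite_fi23
  have hb : ∀ k < 7, bp k < 31671 := fun k hk => (basB_spec (by revert hk k; decide)).1
  have h0 := card_Fix_mul_le ⊤ (l := []) (p := bp 0) (c := 31671) id
    (fun i hi => by
      obtain ⟨g, hg⟩ := exists_to i hi
      obtain ⟨g₀, hg₀⟩ := exists_to (bp 0) (hb 0 (by norm_num))
      refine ⟨g * g₀⁻¹, by simp [Fix_nil], ?_⟩
      rw [← hg₀, act_mul, act_inv_act, hg]
      rfl)
    (fun i _ j _ h => h)
  rw [top_inf_eq, top_inf_eq, Fix_nil, Subgroup.card_top, card_fi23] at h0
  have c1 := orb_check1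
  have c2 := orb_check2
  have c3 := orb_check3
  simp only [Bool.and_eq_true] at c1 c2 c3
  have h1 := orbit_step _ _ _ _ (l := [bp 0]) (fun b h => by
    rcases List.mem_singleton.1 h with rfl; exact hb 0 (by norm_num))
    (Nat.eq_of_beq_eq_true c1.1.2) c1.1.1 c1.2
  have h2 := orbit_step _ _ _ _ (l := [bp 1, bp 0]) (fun b h => by
    simp only [List.mem_cons, List.not_mem_nil, or_false] at h
    rcases h with rfl | rfl <;> exact hb _ (by norm_num))
    (Nat.eq_of_beq_eq_true c2.1.2) c2.1.1 c2.2
  have h3 := orbit_step _ _ _ _ (l := [bp 2, bp 1, bp 0]) (fun b h => by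
    simp only [List.mem_cons, List.not_mem_nil, or_false] at h
    rcases h with rfl | rfl | rfl <;> exact hb _ (by norm_num))
    (Nat.eq_of_beq_eq_true c3.1.2) c3.1.1 c3.2
  omega

/-- an element of the kernel, as a word in the transposition letters -/
def zW' : List ℕ :=
  let e : List ℕ → List ℕ := fun l => (l.map letterAt).flatten
  e cL ++ (e cL' ++ (e cL.reverse ++ e cL'.reverse))

theorem zW_check : (okW zW' && allBelow (fun j => Nat.beq (run zW'.reverse (tp j)) (tp j)) 324 &&
    !(Nat.beq (run zW'.reverse mv) mv) && !(Nat.beq (run zW'.reverse (run zW'.reverse mv)) mv))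
    = true := by decide +kernel

/-- an element of the kernel of the action on the set -/
noncomputable def z : G := gword g10 zW'

theorem z_spec : (∀ j < 324, act z (tp j) = tp j) ∧ z ≠ 1 ∧ z * z ≠ 1 := by
  have h := zW_check
  simp only [Bool.and_eq_true, Bool.not_eq_true'] at h
  obtain ⟨⟨⟨hw, h1⟩, h2⟩, h3⟩ := h
  have hm : mv < 31671 := by decide
  refine ⟨fun j hj => ?_, fun e => ?_, fun e => ?_⟩
  · rw [z, act_gword hw (tp_spec hj).1]
    exact Nat.eq_of_beq_eq_true ((Model.allBelow_iff _ _).1 h1 j hj)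
  · have hh := act_gword hw hm
    rw [show gword g10 zW' = 1 from e, act_one] at hh
    rw [← hh, Nat.beq_refl] at h2
    exact Bool.noConfusion h2
  · have hh : act (z * z) mv = run zW'.reverse (run zW'.reverse mv) := by
      rw [act_mul, z, act_gword hw hm, act_gword hw (run_lt (okW_reverse hw) hm)]
    rw [e, act_one] at hh
    rw [← hh, Nat.beq_refl] at h3
    exact Bool.noConfusion h3

theorem z_fix {i : ℕ} (hi : i < 31671) (hT : inT i = true) : act z i = i := by
  obtain ⟨hj, hji⟩ := ti_spec hi hT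
  rw [← hji]; exact z_spec.1 _ hj

theorem z_mem : z ∈ H := HasTab.mem (f := fun j => j) fun j hj => ⟨hj, z_spec.1 j hj⟩

/-- the subgroups of the sequence -/
noncomputable def P (k : ℕ) : Subgroup G :=
  Subgroup.closure (insert z {g | ∃ j < k, e j = g})

theorem z_mem_P (k : ℕ) : z ∈ P k := Subgroup.subset_closure (Set.mem_insert _ _)

theorem e_mem_P {j k : ℕ} (h : j < k) : e j ∈ P k :=
  Subgroup.subset_closure (Set.mem_insert_of_mem _ ⟨j, h, rfl⟩)

theorem wval_mem_P {k : ℕ} {w : List ℕ} (h : ∀ x ∈ w, x < k) : wval w ∈ P k := by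
  refine Subgroup.list_prod_mem _ ?_
  intro g hg
  obtain ⟨x, hx, rfl⟩ := List.mem_map.1 hg
  exact e_mem_P (h x hx)

theorem P_le_H (k : ℕ) : P k ≤ H := by
  rw [P, Subgroup.closure_le, Set.insert_subset_iff]
  exact ⟨z_mem, by rintro _ ⟨j, -, rfl⟩; exact e_mem j⟩

end CfsgLib.Fi23Solv
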