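import Cfsg.Agent.Fi23Solv.Sift
import Cfsg.Agent.Fi23Solv.Forest

/-!
The stabilizer of the set is maximal, and its ninth derived subgroup is nontrivial.
-/

set_option autoImplicit false
set_option maxRecDepth 20000

namespace CfsgLib.Fi23Solv

open CfsgLib.CosetEnum CfsgLib.CosetEnum.Fi23
open scoped commutatorElement

local notation "G" => Cfsg.Spor.Fi23

theorem t_letters : allBelow (fun l => okW (letterAt l) && okW (tPath.getD l []) &&
    inT (run (tPath.getD l []) pA) &&
    basePts.all (fun i => Nat.beq (runT Tab.perm.T Tab.perm.L (letterAt l) i)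
      (runT Tab.perm.T Tab.perm.L (dW (tPath.getD l [])) i))) nT = true := by decide +kernel

theorem xy_check : (cL.all (fun l => l.blt nT) && cL'.all (fun l => l.blt nT) &&
    xNode.blt nodes && yNode.blt nodes && Nat.beq (olv xNode) 8 && Nat.beq (olv yNode) 8 &&
    allBelow (fun j => Nat.beq (cL.foldr (fun l r => tb l r) j) (tb xNode j) &&
      Nat.beq (cL'.foldr (fun l r => tb l r) j) (tb yNode j)) 324) = true := by decide +kernel

/-- a letter of the first kind is the transposition of a point of the set -/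
theorem letter_tr {l : ℕ} (hl : l < nT) :
    ∃ p, p < 31671 ∧ inT p = true ∧ gword g10 (letterAt l) = tr p := by
  have h := (Model.allBelow_iff _ _).1 t_letters l hl
  simp only [Bool.and_eq_true] at h
  obtain ⟨⟨⟨hw, hp⟩, hT⟩, he⟩ := h
  refine ⟨_, run_lt hp (by decide), hT, ?_⟩
  rw [← gword_dW hp]
  exact gword_eq_of_base (okW_iff.1 hw) (okW_iff.1 (okW_dW hp)) he

theorem word_tab : ∀ (w : List ℕ), (∀ l ∈ w, l < nL) →
    HasTab ((w.map fun l => gword g10 (letterAt l)).prod) (fun j => w.foldr (fun l r => tb l r) j)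
  | [], _ => HasTab.one
  | l :: w, h => by
    have hl : l < nodes := lt_of_lt_of_le (h l List.mem_cons_self) (by decide)
    rw [List.map_cons, List.prod_cons]
    exact ((letter_spec (h l List.mem_cons_self) fun j hj => (row_spec hl hj).1).2).mul
      (word_tab w fun x hx => h x (List.mem_cons_of_mem _ hx))

theorem letters_commute {g : G} (hg : ∀ i < 31671, inT i = true → act g i = i) (w : List ℕ)
    (hw : ∀ l ∈ w, l < nT) :
    g * (w.map fun l => gword g10 (letterAt l)).prod =
      (w.map fun l => gword g10 (letterAt l)).prod * g := by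
  induction w with
  | nil => simp
  | cons l w ih =>
    obtain ⟨p, hp, hT, e⟩ := letter_tr (hw l List.mem_cons_self)
    have h1 : g * tr p = tr p * g := by
      have := tr_conj g hp
      rw [hg p hp hT] at this
      exact mul_inv_eq_iff_eq_mul.1 this
    rw [List.map_cons, List.prod_cons, e, ← mul_assoc, h1, mul_assoc,
      ih fun x hx => hw x (List.mem_cons_of_mem _ hx), mul_assoc]

theorem gword_flatten (w : List ℕ) :
    gword g10 (w.map letterAt).flatten = (w.map fun l => gword g10 (letterAt l)).prod := by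
  induction w with
  | nil => rfl
  | cons l w ih => rw [List.map_cons, List.flatten_cons, gword_app, ih, List.map_cons, List.prod_cons]

theorem tr_inv {p : ℕ} (hp : p < 31671) : (tr p)⁻¹ = tr p := by
  obtain ⟨g, rfl⟩ := exists_to p hp
  rw [tr_act_zero, mul_inv_rev, mul_inv_rev, inv_inv, z0_inv, mul_assoc]

theorem prod_reverse (w : List ℕ) (hw : ∀ l ∈ w, l < nT) :
    (w.reverse.map fun l => gword g10 (letterAt l)).prod =
      ((w.map fun l => gword g10 (letterAt l)).prod)⁻¹ := by
  induction w with
  | nil => simp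
  | cons l w ih =>
    obtain ⟨p, hp, -, e⟩ := letter_tr (hw l List.mem_cons_self)
    rw [List.reverse_cons, List.map_append, List.prod_append,
      ih fun x hx => hw x (List.mem_cons_of_mem _ hx)]
    simp [e, tr_inv hp]

theorem derived_nine_ne_bot : derivedSeries H 9 ≠ ⊥ := by
  have h := xy_check
  simp only [Bool.and_eq_true, List.all_eq_true, Nat.blt, Nat.ble_eq, Nat.beq_eq] at h
  obtain ⟨⟨⟨⟨⟨⟨hc, hc'⟩, hx⟩, hy⟩, hlx⟩, hly⟩, htab⟩ := h
  have ht := (Model.allBelow_iff _ _).1 htab
  simp only [Bool.and_eq_true, Nat.beq_eq] at ht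
  obtain ⟨hx1, hx2⟩ := el_spec hx
  obtain ⟨hy1, hy2⟩ := el_spec hy
  rw [hlx] at hx1
  rw [hly] at hy1
  set c : G := (cL.map fun l => gword g10 (letterAt l)).prod with hcd
  set c' : G := (cL'.map fun l => gword g10 (letterAt l)).prod with hcd'
  have hck := (word_tab cL fun l hl => lt_trans (hc l hl) (by decide))
  have hck' := (word_tab cL' fun l hl => lt_trans (hc' l hl) (by decide))
  have hu : ∀ i < 31671, inT i = true → act ((el xNode : G) * c⁻¹) i = i := by
    intro i hi hT
    obtain ⟨hj, hji⟩ := ti_spec hi hT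
    rw [← hji]
    obtain ⟨k, hk, hkj⟩ := exists_pre hck hj
    rw [← hkj, ← (hck k hk).2, act_mul, act_inv_act, (hx2 k hk).2, (hck k hk).2]
    exact congrArg tp (ht k hk).1.symm
  have hv : ∀ i < 31671, inT i = true → act ((el yNode : G) * c'⁻¹) i = i := by
    intro i hi hT
    obtain ⟨hj, hji⟩ := ti_spec hi hT
    rw [← hji]
    obtain ⟨k, hk, hkj⟩ := exists_pre hck' hj
    rw [← hkj, ← (hck' k hk).2, act_mul, act_inv_act, (hy2 k hk).2, (hck' k hk).2]
    exact congrArg tp (ht k hk).2.symm
  set u := (el xNode : G) * c⁻¹ with hud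
  set v := (el yNode : G) * c'⁻¹ with hvd
  have cu : Commute u c := letters_commute hu cL hc
  have cu' : Commute u c' := letters_commute hu cL' hc'
  have cv : Commute v c := letters_commute hv cL hc
  have cv' : Commute v c' := letters_commute hv cL' hc'
  intro hbot
  have hmem : ⁅el xNode, el yNode⁆ ∈ derivedSeries H 9 := by
    rw [derivedSeries_succ]
    exact Subgroup.commutator_mem_commutator hx1 hy1
  rw [hbot, Subgroup.mem_bot] at hmem
  have e1 : ⁅(el xNode : G), (el yNode : G)⁆ = 1 := by
    simpa [commutatorElement_def] using congrArg Subtype.val hmem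
  have ex : (el xNode : G) = u * c := by rw [hud, inv_mul_cancel_right]
  have ey : (el yNode : G) = v * c' := by rw [hvd, inv_mul_cancel_right]
  -- elements fixing the set pointwise form an abelian group
  have hbase : ∀ {g : G}, (∀ i < 31671, inT i = true → act g i = i) → g ∈ Subgroup.zpowers z :=
    fun {g} hg => by
      rw [← F4_le.2]
      exact fun b hb => hg b (basB_spec (mem_baseR hb)).1 (basB_spec (mem_baseR hb)).2
  obtain ⟨a, ha⟩ := Subgroup.mem_zpowers_iff.1 (hbase hu)
  obtain ⟨b, hb⟩ := Subgroup.mem_zpowers_iff.1 (hbase hv)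
  have cuv : Commute u v := by rw [← ha, ← hb]; exact Commute.zpow_zpow_self z a b
  have key : ⁅u * c, v * c'⁆ = ⁅c, c'⁆ := by
    rw [commutatorElement_def, commutatorElement_def]
    calc u * c * (v * c') * (u * c)⁻¹ * (v * c')⁻¹
        = u * (c * v) * c' * (c⁻¹ * u⁻¹) * (c'⁻¹ * v⁻¹) := by simp [mul_assoc]
      _ = (u * v) * (c * c' * c⁻¹) * u⁻¹ * (c'⁻¹ * v⁻¹) := by rw [← cv.eq]; simp [mul_assoc]
      _ = (v * u) * u⁻¹ * (c * c' * c⁻¹) * (c'⁻¹ * v⁻¹) := by
        rw [cuv.eq, mul_assoc _ (c * c' * c⁻¹) u⁻¹,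
          ((((cu.mul_right cu').mul_right cu.inv_right).inv_left).symm).eq, ← mul_assoc]
        simp [mul_assoc]
      _ = v * (c * c' * c⁻¹ * c'⁻¹) * v⁻¹ := by simp [mul_assoc]
      _ = c * c' * c⁻¹ * c'⁻¹ := by
        rw [(((cv.mul_right cv').mul_right cv.inv_right).mul_right cv'.inv_right).eq,
          mul_inv_cancel_right]
  rw [ex, ey, key] at e1
  refine z_spec.2.1 ?_
  rw [z, zW', gword_app, gword_app, gword_app, gword_flatten, gword_flatten, gword_flatten,
    gword_flatten, prod_reverse cL hc, prod_reverse cL' hc', ← hcd, ← hcd', ← e1, commutatorElement_def]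
  simp [mul_assoc]

theorem lab_check : allBelow (fun i => inT i || (info i % 8 - 1).blt 5) 31671 = true := by
  decide +kernel

theorem tr_zero_check : (okW path0 && Nat.beq (run path0 pA) (bp 0) &&
    allBelow (fun j => inT (run (dW path0) (tp j))) 324) = true := by decide +kernel

theorem cases0_tr : allBelow (fun j => match cases0.getD j (.tr []) with
    | .tr _ => true
    | .ref _ _ _ _ => false) 324 = true := by decide +kernel

/-- the transpositions of the set are in the stabilizer -/
theorem tr_mem_H {j : ℕ} (hj : j < 324) : tr (tp j) ∈ H := by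
  have h := tr_zero_check
  simp only [Bool.and_eq_true] at h
  obtain ⟨⟨hw0, hp0⟩, hall⟩ := h
  have h0 : tr (bp 0) ∈ H := by
    refine mem_H_of_maps fun k hk => ?_
    rw [← Nat.eq_of_beq_eq_true hp0, act_tr hw0 (tp_spec hk).1]
    exact (Model.allBelow_iff _ _).1 hall k hk
  have hc := cases_check0
  rw [casesOK, Bool.and_eq_true] at hc
  have hs := (Model.allBelow_iff _ _).1 hc.2 j hj
  have ht := (Model.allBelow_iff _ _).1 cases0_tr j hj
  cases hcase : cases0.getD j (.tr []) with
  | tr w =>
    rw [hcase] at hs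
    simp only [caseOK, Bool.and_eq_true, List.all_eq_true, Nat.blt, Nat.ble_eq] at hs
    obtain ⟨⟨hlt, hq⟩, -⟩ := hs
    have hb := basB_spec (bp_mem (show 0 < 7 by norm_num))
    obtain ⟨hi, hie⟩ := ti_spec hb.1 hb.2
    have e : act (wval w) (bp 0) = tp j := by
      conv_lhs => rw [← hie]
      rw [(wtab_tab w _ hi).2, Nat.eq_of_beq_eq_true hq]
    have hw : wval w ∈ H := P_le_H 23 (wval_mem_P hlt)
    rw [← e, ← tr_conj _ hb.1]
    exact mul_mem (mul_mem hw h0) (inv_mem hw)
  | ref st k l m =>
    rw [hcase] at ht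
    exact Bool.noConfusion ht

/-- the generators of a closure certificate, as paths -/
noncomputable def gensValid (r : ℕ) (gs : List (List ℕ)) : Bool :=
  gs.all fun w => okW w && (inT (run w pA) || Nat.beq (run w pA) r ||
    Nat.beq (run w pA) (run (letterAt 14).reverse r) || Nat.beq (run w pA) (run (letterAt 15).reverse r) ||
    Nat.beq (run w pA) (run (letterAt 16).reverse r))

/-- the points reached -/
def closePts : List (ℕ × ℕ × ℕ) → List ℕ → List ℕ
  | [], pts => pts
  | (_, _, n) :: st, pts => closePts st (pts ++ [n])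

/-- the steps are right -/
noncomputable def stepsOK (gs : List (List ℕ)) : List (ℕ × ℕ × ℕ) → List ℕ → Bool
  | [], _ => true
  | (q, g, n) :: st, pts => q.blt pts.length && g.blt gs.length &&
      Nat.beq (run (dW (gs.getD g [])) (pts.getD q 0)) n && stepsOK gs st (pts ++ [n])

/-- a closure certificate -/
noncomputable def closeOK (c : ℕ × List (List ℕ) × List (ℕ × ℕ × ℕ)) : Bool :=
  c.1.blt 31671 && gensValid c.1 c.2.1 && stepsOK c.2.1 c.2.2 [c.1] &&
    allBelow (fun x => inT (run (genPath.getD x []) pA) ||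
      (closePts c.2.2 [c.1]).any fun p => Nat.beq p (run (genPath.getD x []) pA)) 10

theorem closures_check : (closures.all closeOK &&
    allBelow (fun i => Nat.beq ((closures.getD i (0, [], [])).1) (reps.getD i 0)) 5 &&
    Nat.beq closures.length 5 && Nat.beq reps.length 5) = true := by decide +kernel

theorem genPath_check : allBelow (fun x => okW (genPath.getD x []) &&
    basePts.all fun i => Nat.beq (runT Tab.perm.T Tab.perm.L [x] i)
      (runT Tab.perm.T Tab.perm.L (dW (genPath.getD x [])) i)) 10 = true := by decide +kernel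

theorem g10_eq_tr {x : ℕ} (hx : x < 10) :
    g10 x = tr (run (genPath.getD x []) pA) := by
  have h := (Model.allBelow_iff _ _).1 genPath_check x hx
  rw [Bool.and_eq_true] at h
  rw [← gword_dW h.1, ← gword_one]
  exact gword_eq_of_base (by simpa using hx) (okW_iff.1 (okW_dW h.1)) h.2

theorem closePts_mem (L : Subgroup G) (gs : List (List ℕ))
    (hgs : ∀ w ∈ gs, okW w = true ∧ tr (run w pA) ∈ L) :
    ∀ st pts, stepsOK gs st pts = true → (∀ p ∈ pts, p < 31671 ∧ tr p ∈ L) →
      ∀ p ∈ closePts st pts, p < 31671 ∧ tr p ∈ L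
  | [], _, _, h => h
  | (q, g, n) :: st, pts, hok, h => by
    simp only [stepsOK, Bool.and_eq_true, Nat.blt, Nat.ble_eq] at hok
    obtain ⟨⟨⟨hq, hg⟩, he⟩, hrest⟩ := hok
    refine closePts_mem L gs hgs st _ hrest fun p hp => ?_
    rcases List.mem_append.1 hp with hp | hp
    · exact h p hp
    rw [List.mem_singleton.1 hp, ← Nat.eq_of_beq_eq_true he]
    have hmq : pts.getD q 0 ∈ pts := by
      rw [List.getD_eq_getElem?_getD, List.getElem?_eq_getElem hq]; exact List.getElem_mem hq
    have hmg : gs.getD g [] ∈ gs := by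
      rw [List.getD_eq_getElem?_getD, List.getElem?_eq_getElem hg]; exact List.getElem_mem hg
    obtain ⟨hw, hL⟩ := hgs _ hmg
    obtain ⟨hlt, hLq⟩ := h _ hmq
    refine ⟨run_lt (okW_dW hw) hlt, ?_⟩
    rw [← act_tr hw hlt, ← tr_conj _ hlt]
    exact mul_mem (mul_mem hL hLq) (inv_mem hL)

theorem ne_top_check : (inT 7 && !(inT (run [2] 7))) = true := by decide +kernel

theorem H_ne_top : H ≠ ⊤ := by
  intro h
  have hm : g10 2 ∈ H := h ▸ Subgroup.mem_top _
  have hc := ne_top_check
  rw [Bool.and_eq_true, Bool.not_eq_true'] at hc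
  have e := inT_act hm (show 7 < 31671 by norm_num)
  rw [← gword_one, act_gword (by decide) (by norm_num), hc.1, List.reverse_singleton, hc.2] at e
  exact Bool.noConfusion e

theorem H_isCoatom : IsCoatom H := by
  refine ⟨H_ne_top, fun L hL => ?_⟩
  obtain ⟨hHL, hne⟩ := lt_iff_le_and_ne.1 hL
  obtain ⟨g, hgL, hgH⟩ := SetLike.exists_of_lt hL
  have hT : ∀ j < 324, tr (tp j) ∈ L := fun j hj => hHL (tr_mem_H hj)
  -- a point outside the set with transposition in `L`
  obtain ⟨p, hp, hpT, hpL⟩ : ∃ p < 31671, inT p = false ∧ tr p ∈ L := by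
    by_contra hcon
    refine hgH (mem_H_of_maps fun j hj => ?_)
    cases hc : inT (act g (tp j))
    · refine absurd ⟨_, act_lt g (tp_spec hj).1, hc, ?_⟩ hcon
      rw [← tr_conj g (tp_spec hj).1]
      exact mul_mem (mul_mem hgL (hT j hj)) (inv_mem hgL)
    · rfl
  have hlet : ∀ l < nL, gword g10 (letterAt l) ∈ L := fun l hl =>
    hHL (letter_spec hl fun j hj =>
      (row_spec (lt_of_lt_of_le hl (by decide)) hj).1).2.mem
  have hok : ∀ l < nL, okW (letterAt l) = true := fun l hl =>
    (letter_spec hl fun j hj => (row_spec (lt_of_lt_of_le hl (by decide)) hj).1).1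
  -- its orbit representative
  have hrep : ∀ n i, (info i >>> 7) % 256 = n → i < 31671 → inT i = false → tr i ∈ L →
      tr (reps.getD (info i % 8 - 1) 0) ∈ L := by
    intro n
    induction n using Nat.strong_induction_on with
    | _ n ih =>
      intro i hn hi hiT hiL
      have h := forest_spec hi
      rw [forestOK] at h
      rw [hiT, Bool.false_or] at h
      cases hz : Nat.beq ((info i >>> 7) % 256) 0
      · rw [hz, cond_false] at h
        simp only [Bool.and_eq_true, Bool.not_eq_true', Nat.blt, Nat.ble_eq, Nat.beq_eq] at h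
        obtain ⟨⟨⟨⟨⟨hq, hl⟩, hr⟩, hqT⟩, hlab⟩, hrun⟩ := h
        rw [← hlab]
        refine ih _ (by omega) _ rfl hq hqT ?_
        have hl8 : (info i >>> 3) % 16 < nL := lt_trans hl (by decide)
        have e : act (gword g10 (letterAt ((info i >>> 3) % 16))) i = info i >>> 16 := by
          have h1 := act_gword_inv (hok _ hl8) hq
          rw [hrun] at h1
          have h2 := congrArg (act (gword g10 (letterAt ((info i >>> 3) % 16)))) h1
          rw [act_act_inv] at h2
          exact h2.symm
        rw [← e, ← tr_conj _ hi]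
        exact mul_mem (mul_mem (hlet _ hl8) hiL) (inv_mem (hlet _ hl8))
      · rw [hz, cond_true] at h
        rw [Nat.eq_of_beq_eq_true h]
        exact hiL
  have hr := hrep _ p rfl hp hpT hpL
  have hc := closures_check
  simp only [Bool.and_eq_true, Nat.beq_eq] at hc
  obtain ⟨⟨⟨hall, hreps⟩, hlen⟩, hlen'⟩ := hc
  have hlab5 : ∀ i < 31671, inT i = false → info i % 8 - 1 < 5 := by
    intro i hi hiT
    have h := (Model.allBelow_iff _ _).1 lab_check i hi
    rw [hiT, Bool.false_or] at h
    simpa [Nat.blt, Nat.ble_eq] using h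
  set i5 := info p % 8 - 1 with hi5
  have hi5lt : i5 < 5 := hlab5 p hp hpT
  have hmem : closures.getD i5 (0, [], []) ∈ closures := by
    rw [List.getD_eq_getElem?_getD, List.getElem?_eq_getElem (hlen ▸ hi5lt)]
    exact List.getElem_mem _
  have hok' := List.all_eq_true.1 hall _ hmem
  have hr1 : (closures.getD i5 (0, [], [])).1 = reps.getD i5 0 :=
    Nat.eq_of_beq_eq_true ((Model.allBelow_iff _ _).1 hreps i5 hi5lt)
  rw [← hr1] at hr
  generalize closures.getD i5 (0, [], []) = c at hok' hr
  obtain ⟨r, gs, st⟩ := c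
  simp only [closeOK, Bool.and_eq_true] at hok'
  obtain ⟨⟨⟨hr31, hgv⟩, hst⟩, hcov⟩ := hok'
  have hr31' : r < 31671 := by simpa [Nat.blt, Nat.ble_eq] using hr31
  have hgs : ∀ w ∈ gs, okW w = true ∧ tr (run w pA) ∈ L := by
    intro w hw
    have h := List.all_eq_true.1 hgv w hw
    simp only [Bool.and_eq_true, Bool.or_eq_true, Nat.beq_eq] at h
    refine ⟨h.1, ?_⟩
    have hlt : run w pA < 31671 := run_lt h.1 (by decide)
    rcases h.2 with (((hT' | e) | e) | e) | e
    · obtain ⟨hj, hji⟩ := ti_spec hlt hT'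
      rw [← hji]; exact hT _ hj
    · rw [e]; exact hr
    · rw [e, ← act_gword (hok 14 (by decide)) hr31', ← tr_conj _ hr31']
      exact mul_mem (mul_mem (hlet 14 (by decide)) hr) (inv_mem (hlet 14 (by decide)))
    · rw [e, ← act_gword (hok 15 (by decide)) hr31', ← tr_conj _ hr31']
      exact mul_mem (mul_mem (hlet 15 (by decide)) hr) (inv_mem (hlet 15 (by decide)))
    · rw [e, ← act_gword (hok 16 (by decide)) hr31', ← tr_conj _ hr31']
      exact mul_mem (mul_mem (hlet 16 (by decide)) hr) (inv_mem (hlet 16 (by decide)))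
  have hpts := closePts_mem L gs hgs st [r] hst (fun q hq => by
    rw [List.mem_singleton.1 hq]; exact ⟨hr31', hr⟩)
  rw [eq_top_iff, ← closure_g10, Subgroup.closure_le]
  rintro _ ⟨x, hx, rfl⟩
  rw [SetLike.mem_coe, g10_eq_tr hx]
  have h := (Model.allBelow_iff _ _).1 hcov x hx
  rw [Bool.or_eq_true, List.any_eq_true] at h
  rcases h with h | ⟨q, hq, e⟩
  · have hlt : run (genPath.getD x []) pA < 31671 := by
      have h' := (Model.allBelow_iff _ _).1 genPath_check x hx
      rw [Bool.and_eq_true] at h'
      exact run_lt h'.1 (by decide)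
    obtain ⟨hj, hji⟩ := ti_spec hlt h
    rw [← hji]; exact hT _ hj
  · rw [← Nat.eq_of_beq_eq_true e]
    exact (hpts q hq).2

theorem derived_ne : derivedSeries H 10 ≠ derivedSeries H 9 := by
  intro h
  refine derived_nine_ne_bot ?_
  have key : ∀ k, derivedSeries H (9 + k) = derivedSeries H 9 := by
    intro k
    induction k with
    | zero => rfl
    | succ k ih => rw [show 9 + (k + 1) = (9 + k) + 1 from rfl, derivedSeries_succ, ih,
        ← derivedSeries_succ, h]
  rw [← key 15]
  exact derived_eq_bot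

end CfsgLib.Fi23Solv
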