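import Cfsg.Agent.Fi23Solv.Basic

/-!
The elements of the stabilizer given by straight-line programs on the 324 points, with lower bounds
for their depth in the derived series.
-/

set_option autoImplicit false
set_option maxRecDepth 20000

namespace CfsgLib.Fi23Solv

open CfsgLib.CosetEnum CfsgLib.CosetEnum.Fi23
open scoped commutatorElement

local notation "G" => Cfsg.Spor.Fi23

/-- table of an element of the program -/
noncomputable def tb (i j : ℕ) : ℕ := (nodeRow i >>> (16 * j)) % 65536

/-- operation code -/
noncomputable def opc (i : ℕ) : ℕ := prog (4 * i)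
/-- first operand -/
noncomputable def oa (i : ℕ) : ℕ := prog (4 * i + 1)
/-- second operand -/
noncomputable def ob (i : ℕ) : ℕ := prog (4 * i + 2)
/-- depth in the derived series -/
noncomputable def olv (i : ℕ) : ℕ := prog (4 * i + 3)

/-- check of one table row -/
noncomputable def rowOK (i : ℕ) : Bool :=
  allBelow (fun j =>
    (tb i j).blt 324 &&
    ((Nat.beq (opc i) 0 && Nat.beq (tb i j) (tb (oa i) (tb (ob i) j))) ||
     (Nat.beq (opc i) 1 && Nat.beq (tb (oa i) (tb i j)) j) ||
     (Nat.beq (opc i) 2 &&
        Nat.beq (tb i (tb (ob i) (tb (oa i) j))) (tb (oa i) (tb (ob i) j))) ||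
     (Nat.beq (opc i) 3 && Nat.beq (tb i (tb (ob i) j)) (tb (ob i) (tb (oa i) j))) ||
     (Nat.beq (opc i) 4 && i.blt nL))) 324

/-- check of the operands and depths -/
noncomputable def headOK (i : ℕ) : Bool :=
  bif Nat.beq (opc i) 4 then Nat.beq (olv i) 0
  else (oa i).blt i && (ob i).blt i &&
    (bif Nat.beq (opc i) 0 then Nat.ble (olv i) (olv (oa i)) && Nat.ble (olv i) (olv (ob i))
     else bif Nat.beq (opc i) 2 then
       Nat.ble (olv i) (olv (oa i) + 1) && Nat.ble (olv i) (olv (ob i) + 1)
     else Nat.ble (olv i) (olv (oa i)))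

theorem rowFrom {f : ℕ → Bool} {a : ℕ} :
    ∀ {m : ℕ}, allFrom f a m = true → ∀ {j : ℕ}, a ≤ j → j < a + m → f j = true := by
  intro m
  induction m with
  | zero => intro _ j h1 h2; omega
  | succ n ih =>
    intro h j h1 h2
    rw [allFrom, Bool.and_eq_true] at h
    by_cases e : j = a + n
    · rw [e]; exact h.1
    · exact ih h.2 h1 (by omega)

theorem nodes_row0 : allFrom rowOK 0 50 = true := by decide +kernel

theorem nodes_row1 : allFrom rowOK 50 50 = true := by decide +kernel

theorem nodes_row2 : allFrom rowOK 100 50 = true := by decide +kernel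

theorem nodes_row3 : allFrom rowOK 150 50 = true := by decide +kernel

theorem nodes_row4 : allFrom rowOK 200 50 = true := by decide +kernel

theorem nodes_row5 : allFrom rowOK 250 50 = true := by decide +kernel

theorem nodes_row6 : allFrom rowOK 300 50 = true := by decide +kernel

theorem nodes_row7 : allFrom rowOK 350 50 = true := by decide +kernel

theorem nodes_row8 : allFrom rowOK 400 50 = true := by decide +kernel

theorem nodes_row9 : allFrom rowOK 450 50 = true := by decide +kernel

theorem nodes_row10 : allFrom rowOK 500 50 = true := by decide +kernel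

theorem nodes_row11 : allFrom rowOK 550 50 = true := by decide +kernel

theorem nodes_row12 : allFrom rowOK 600 10 = true := by decide +kernel

theorem nodes_row {i : ℕ} (hi : i < nodes) : rowOK i = true := by
  have hn : i < 610 := hi
  by_cases h0 : i < 50
  · exact rowFrom nodes_row0 (by omega) (by omega)
  by_cases h1 : i < 100
  · exact rowFrom nodes_row1 (by omega) (by omega)
  by_cases h2 : i < 150
  · exact rowFrom nodes_row2 (by omega) (by omega)
  by_cases h3 : i < 200
  · exact rowFrom nodes_row3 (by omega) (by omega)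
  by_cases h4 : i < 250
  · exact rowFrom nodes_row4 (by omega) (by omega)
  by_cases h5 : i < 300
  · exact rowFrom nodes_row5 (by omega) (by omega)
  by_cases h6 : i < 350
  · exact rowFrom nodes_row6 (by omega) (by omega)
  by_cases h7 : i < 400
  · exact rowFrom nodes_row7 (by omega) (by omega)
  by_cases h8 : i < 450
  · exact rowFrom nodes_row8 (by omega) (by omega)
  by_cases h9 : i < 500
  · exact rowFrom nodes_row9 (by omega) (by omega)
  by_cases h10 : i < 550
  · exact rowFrom nodes_row10 (by omega) (by omega)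
  by_cases h11 : i < 600
  · exact rowFrom nodes_row11 (by omega) (by omega)
  exact rowFrom nodes_row12 (by omega) (by omega)

theorem nodes_head : allBelow headOK nodes = true := by decide +kernel

/-- the words of the letters -/
def letterAt (i : ℕ) : List ℕ := letterW.getD i []

theorem letters_check : allBelow (fun l => okW (letterAt l) &&
    allBelow (fun j => Nat.beq (run (letterAt l).reverse (tp j)) (tp (tb l j))) 324) nL = true := by
  decide +kernel

theorem letter_spec {l : ℕ} (hl : l < nL) (hb : ∀ j < 324, tb l j < 324) :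
    okW (letterAt l) = true ∧ HasTab (gword g10 (letterAt l)) (tb l) := by
  have h := (Model.allBelow_iff _ _).1 letters_check l hl
  rw [Bool.and_eq_true] at h
  refine ⟨h.1, fun j hj => ⟨hb j hj, ?_⟩⟩
  rw [act_gword h.1 (tp_spec hj).1]
  exact Nat.eq_of_beq_eq_true ((Model.allBelow_iff _ _).1 h.2 j hj)

theorem row_spec {i : ℕ} (hi : i < nodes) {j : ℕ} (hj : j < 324) :
    tb i j < 324 ∧
    ((opc i = 0 ∧ tb i j = tb (oa i) (tb (ob i) j)) ∨
     (opc i = 1 ∧ tb (oa i) (tb i j) = j) ∨
     (opc i = 2 ∧ tb i (tb (ob i) (tb (oa i) j)) = tb (oa i) (tb (ob i) j)) ∨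
     (opc i = 3 ∧ tb i (tb (ob i) j) = tb (ob i) (tb (oa i) j)) ∨
     (opc i = 4 ∧ i < nL)) := by
  have h := (Model.allBelow_iff _ _).1 (nodes_row hi) j hj
  simp only [Bool.and_eq_true, Bool.or_eq_true, Nat.blt, Nat.ble_eq, Nat.beq_eq, or_assoc] at h
  exact h

/-- every element of a finite set moved into itself is an image -/
theorem exists_pre {g : G} {f : ℕ → ℕ} (h : HasTab g f) {j : ℕ} (hj : j < 324) :
    ∃ k < 324, f k = j := by
  have hs := conj_mem_H_iff (inv_mem h.mem) hj
  obtain ⟨hk, hkj⟩ := ti_spec hs.1 hs.2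
  refine ⟨_, hk, tp_inj (h _ hk).1 hj ?_⟩
  rw [← (h _ hk).2, hkj, act_act_inv]

theorem derived_normal {A : Type*} [Group A] (k : ℕ) (a b : A) (ha : a ∈ derivedSeries A k) :
    b * a * b⁻¹ ∈ derivedSeries A k :=
  (inferInstance : (derivedSeries A k).Normal).conj_mem a ha b

/-- every node of the program is realised by an element of the stabilizer -/
theorem exists_node (i : ℕ) (hi : i < nodes) :
    ∃ g : H, g ∈ derivedSeries H (olv i) ∧ HasTab (g : G) (tb i) := by
  induction i using Nat.strong_induction_on with
  | _ i ih =>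
    have hh := (Model.allBelow_iff _ _).1 nodes_head i hi
    have hb : ∀ j < 324, tb i j < 324 := fun j hj => (row_spec hi hj).1
    have hr := (row_spec hi (show (0 : ℕ) < 324 by norm_num)).2
    rw [headOK] at hh
    by_cases h4 : opc i = 4
    · have hi8 : i < nL := by omega
      simp only [h4, Nat.beq_refl, cond_true, Nat.beq_eq] at hh
      obtain ⟨-, ht⟩ := letter_spec hi8 hb
      refine ⟨⟨_, ht.mem⟩, ?_, ht⟩
      rw [hh, derivedSeries_zero]
      exact Subgroup.mem_top _
    have hne : Nat.beq (opc i) 4 = false := by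
      cases hc : Nat.beq (opc i) 4
      · rfl
      · exact absurd (Nat.eq_of_beq_eq_true hc) h4
    rw [hne, cond_false, Bool.and_eq_true, Bool.and_eq_true] at hh
    obtain ⟨⟨ha, hb'⟩, hd⟩ := hh
    simp only [Nat.blt, Nat.ble_eq] at ha hb'
    obtain ⟨a, ha1, ha2⟩ := ih _ ha (by omega)
    obtain ⟨b, hb1, hb2⟩ := ih _ hb' (by omega)
    have anti := derivedSeries_antitone H
    rcases hr with ⟨h0, -⟩ | ⟨h1, -⟩ | ⟨h2, -⟩ | ⟨h3, -⟩ | ⟨h, -⟩
    · simp only [h0, Nat.beq_refl, cond_true, Bool.and_eq_true, Nat.ble_eq] at hd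
      refine ⟨a * b, mul_mem (anti hd.1 ha1) (anti hd.2 hb1), (ha2.mul hb2).congr fun j hj => ?_⟩
      have := (row_spec hi hj).2
      rw [h0] at this
      omega
    · simp only [h1, show Nat.beq 1 0 = false from rfl, show Nat.beq 1 2 = false from rfl,
        cond_false, Nat.ble_eq] at hd
      refine ⟨a⁻¹, inv_mem (anti hd ha1), fun j hj => ⟨hb j hj, ?_⟩⟩
      have := (row_spec hi hj).2
      rw [h1] at this
      have hinv : tb (oa i) (tb i j) = j := by omega
      refine act_inj (a : G) ?_
      rw [(ha2 _ (hb j hj)).2, hinv]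
      exact act_act_inv _ _
    · simp only [h2, show Nat.beq 2 0 = false from rfl, Nat.beq_refl, cond_false, cond_true,
        Bool.and_eq_true, Nat.ble_eq] at hd
      refine ⟨⁅a, b⁆, ?_, fun j hj => ⟨hb j hj, ?_⟩⟩
      · rcases Nat.eq_zero_or_pos (olv i) with h | h
        · rw [h, derivedSeries_zero]; exact Subgroup.mem_top _
        obtain ⟨k, hk⟩ := Nat.exists_eq_succ_of_ne_zero h.ne'
        rw [hk, derivedSeries_succ]
        exact Subgroup.commutator_mem_commutator (anti (show k ≤ olv (oa i) by omega) ha1)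
          (anti (show k ≤ olv (ob i) by omega) hb1)
      obtain ⟨u, hu, hu'⟩ := exists_pre (hb2.mul ha2) hj
      have := (row_spec hi hu).2
      rw [h2] at this
      have e : tb i j = tb (oa i) (tb (ob i) u) := by rw [← hu']; omega
      rw [e, ← hu', ← ((hb2.mul ha2) u hu).2, ← ((ha2.mul hb2) u hu).2, ← act_mul]
      refine congrArg (act · (tp u)) ?_
      simp [commutatorElement_def, mul_assoc]
    · simp only [h3, show Nat.beq 3 0 = false from rfl, show Nat.beq 3 2 = false from rfl,
        cond_false, Nat.ble_eq] at hd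
      refine ⟨b * a * b⁻¹, derived_normal _ a b (anti hd ha1), fun j hj => ⟨hb j hj, ?_⟩⟩
      obtain ⟨u, hu, hu'⟩ := exists_pre hb2 hj
      have := (row_spec hi hu).2
      rw [h3] at this
      have e : tb i j = tb (ob i) (tb (oa i) u) := by rw [← hu']; omega
      rw [e, ← hu', ← (hb2 u hu).2, ← ((hb2.mul ha2) u hu).2, ← act_mul]
      refine congrArg (act · (tp u)) ?_
      simp [mul_assoc]
    · exact absurd h h4

end CfsgLib.Fi23Solv
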