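import Cfsg.Agent.Fi23Solv.Solvable

/-!
Every element of the stabilizer is in the last subgroup of the sequence: candidate images of base
points are reached or refuted by reflections.
-/

set_option autoImplicit false
set_option maxRecDepth 20000

namespace CfsgLib.Fi23Solv

open CfsgLib.CosetEnum CfsgLib.CosetEnum.Fi23
open scoped commutatorElement

local notation "G" => Cfsg.Spor.Fi23

/-- one step: both sides get the image under the transposition of a known point -/
noncomputable def refGo : List (ℕ × ℕ × List ℕ × List ℕ) → List ℕ → List ℕ →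
    (List ℕ → List ℕ → Bool) → Bool
  | [], A, C, fin => fin A C
  | (u, v, pu, pu') :: st, A, C, fin =>
    okW pu && okW pu' && u.blt A.length && v.blt A.length &&
      Nat.beq (run pu pA) (A.getD u 0) && Nat.beq (run pu' pA) (C.getD u 0) &&
      refGo st (A ++ [run (dW pu) (A.getD v 0)]) (C ++ [run (dW pu') (C.getD v 0)]) fin

/-- the witness of a contradiction -/
noncomputable def refFin (kind l m : ℕ) (A C : List ℕ) : Bool :=
  l.blt A.length && m.blt A.length &&
    (bif Nat.beq kind 0 then !(inT (A.getD l 0) == inT (C.getD l 0))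
     else !(Nat.beq (A.getD l 0) (A.getD m 0) == Nat.beq (C.getD l 0) (C.getD m 0)))

/-- check of one candidate -/
noncomputable def caseOK (fixed : List ℕ) (b q : ℕ) : Case → Bool
  | .tr w => w.all (fun k => k.blt 23) && Nat.beq (tp (wtab w (ti b))) q &&
      fixed.all (fun f => Nat.beq (wtab w (ti f)) (ti f))
  | .ref st kind l m => refGo st (fixed ++ [b]) (fixed ++ [q]) (refFin kind l m)

/-- check of all candidates -/
noncomputable def casesOK (fixed : List ℕ) (b : ℕ) (cs : List Case) : Bool :=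
  Nat.beq cs.length 324 &&
    allBelow (fun j => caseOK fixed b (tp j) (cs.getD j (.tr []))) 324

theorem cases_check0 : casesOK [] (bp 0) cases0 = true := by decide +kernel

theorem cases_check1 : casesOK [bp 0] (bp 1) cases1 = true := by decide +kernel

theorem cases_check2 : casesOK [bp 0, bp 1] (bp 2) cases2 = true := by decide +kernel

theorem cases_check3 : casesOK [bp 0, bp 1, bp 2] (bp 3) cases3 = true := by decide +kernel

/-- the two lists correspond -/
def Corr (h : G) (A C : List ℕ) : Prop :=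
  A.length = C.length ∧ ∀ i < A.length, A.getD i 0 < 31671 ∧ act h (A.getD i 0) = C.getD i 0

theorem Corr.snoc {h : G} {A C : List ℕ} (hc : Corr h A C) {a c : ℕ} (ha : a < 31671)
    (hac : act h a = c) : Corr h (A ++ [a]) (C ++ [c]) := by
  obtain ⟨hl, he⟩ := hc
  refine ⟨by simp [hl], fun i hi => ?_⟩
  rcases Nat.lt_or_ge i A.length with h' | h'
  · rw [List.getD_append _ _ _ _ h', List.getD_append _ _ _ _ (hl ▸ h')]
    exact he i h'
  · have : i = A.length := by simp at hi; omega
    subst this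
    rw [List.getD_append_right _ _ _ _ le_rfl, List.getD_append_right _ _ _ _ (hl ▸ le_rfl)]
    simp [hl, ha, hac]

theorem refGo_sound {h : G} (hh : h ∈ H) {kind l m : ℕ} :
    ∀ st A C, Corr h A C → refGo st A C (refFin kind l m) = true → False
  | [], A, C, hc, hr => by
    simp only [refGo, refFin, Bool.and_eq_true, Nat.blt, Nat.ble_eq] at hr
    obtain ⟨⟨hl, hm⟩, hw⟩ := hr
    obtain ⟨hal, hl'⟩ := hc.2 l hl
    obtain ⟨ham, hm'⟩ := hc.2 m hm
    rw [← hl', ← hm', inT_act hh hal] at hw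
    cases hk : Nat.beq kind 0
    · rw [hk, cond_false] at hw
      have e : Nat.beq (act h (A.getD l 0)) (act h (A.getD m 0)) =
          Nat.beq (A.getD l 0) (A.getD m 0) := by
        rw [Bool.eq_iff_iff]
        simp only [Nat.beq_eq]
        exact ⟨act_inj h, congrArg _⟩
      rw [e, beq_self_eq_true] at hw
      exact Bool.noConfusion hw
    · rw [hk, cond_true, beq_self_eq_true] at hw
      exact Bool.noConfusion hw
  | (u, v, pu, pu') :: st, A, C, hc, hr => by
    simp only [refGo, Bool.and_eq_true, Nat.blt, Nat.ble_eq, Nat.beq_eq] at hr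
    obtain ⟨⟨⟨⟨⟨⟨h1, h2⟩, hu⟩, hv⟩, eu⟩, eu'⟩, hgo⟩ := hr
    obtain ⟨hau, hu'⟩ := hc.2 u hu
    obtain ⟨hav, hv'⟩ := hc.2 v hv
    refine refGo_sound hh st _ _ (hc.snoc (run_lt (okW_dW h1) hav) ?_) hgo
    have hcv : C.getD v 0 < 31671 := hv' ▸ act_lt h hav
    rw [← act_tr h1 hav, ← act_tr h2 hcv, eu, eu', ← hu', ← hv', ← tr_conj h hau, act_mul, act_mul,
      act_inv_act]

theorem case_step {fixed : List ℕ} {b : ℕ} {cs : List Case} (hc : casesOK fixed b cs = true)
    (hb : b ∈ basB) (hfix : ∀ f ∈ fixed, f ∈ basB) {h : G} (hh : h ∈ H)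
    (hf : ∀ f ∈ fixed, act h f = f) :
    ∃ p ∈ P 23, ∀ f ∈ fixed ++ [b], act (p⁻¹ * h) f = f := by
  rw [casesOK, Bool.and_eq_true] at hc
  have hbT := basB_spec hb
  obtain ⟨hj, hjq⟩ := ti_spec (act_lt h hbT.1) (by rw [inT_act hh hbT.1, hbT.2])
  have hs := (Model.allBelow_iff _ _).1 hc.2 _ hj
  rw [hjq] at hs
  cases hcase : cs.getD (ti (act h b)) (.tr []) with
  | tr w =>
    rw [hcase] at hs
    simp only [caseOK, Bool.and_eq_true, List.all_eq_true, Nat.blt, Nat.ble_eq] at hs
    obtain ⟨⟨hlt, hq⟩, hfw⟩ := hs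
    refine ⟨wval w, wval_mem_P hlt, fun f hfm => ?_⟩
    rw [List.mem_append, List.mem_singleton] at hfm
    rcases hfm with hfm | rfl
    · obtain ⟨hi, hif⟩ := ti_spec (basB_spec (hfix f hfm)).1 (basB_spec (hfix f hfm)).2
      have e : act (wval w) f = f := by
        conv_lhs => rw [← hif]
        rw [(wtab_tab w _ hi).2, Nat.eq_of_beq_eq_true (hfw f hfm), hif]
      rw [act_mul, hf f hfm]
      conv_lhs => rw [← e]
      rw [act_inv_act]
    · obtain ⟨hi, hif⟩ := ti_spec hbT.1 hbT.2
      have e : act (wval w) f = act h f := by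
        conv_lhs => rw [← hif]
        rw [(wtab_tab w _ hi).2, Nat.eq_of_beq_eq_true hq]
      rw [act_mul, ← e, act_inv_act]
  | ref st kind l m =>
    rw [hcase] at hs
    refine (refGo_sound hh st _ _ ?_ hs).elim
    have base : ∀ xs : List ℕ, (∀ f ∈ xs, f ∈ basB ∧ act h f = f) → Corr h xs xs := by
      intro xs hxs
      refine ⟨rfl, fun i hi => ?_⟩
      have hm : xs.getD i 0 ∈ xs := by
        rw [List.getD_eq_getElem?_getD, List.getElem?_eq_getElem hi]; exact List.getElem_mem hi
      exact ⟨(basB_spec (hxs _ hm).1).1, (hxs _ hm).2⟩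
    exact (base fixed fun f hfm => ⟨hfix f hfm, hf f hfm⟩).snoc hbT.1 rfl

theorem H_eq : H = P 23 := by
  refine le_antisymm (fun h hh => ?_) (P_le_H 23)
  have hstep : ∀ {g : G}, g ∈ H → ∀ {fixed b}, ∀ cs, casesOK fixed b cs = true → b ∈ basB →
      (∀ f ∈ fixed, f ∈ basB) → (∀ f ∈ fixed, act g f = f) →
      ∃ p ∈ P 23, p⁻¹ * g ∈ H ∧ ∀ f ∈ fixed ++ [b], act (p⁻¹ * g) f = f := by
    intro g hg fixed b cs hc hb hfix hf
    obtain ⟨p, hp, he⟩ := case_step hc hb hfix hg hf
    exact ⟨p, hp, mul_mem (inv_mem (P_le_H 23 hp)) hg, he⟩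
  have b0 := bp_mem (show 0 < 7 by norm_num)
  have b1 := bp_mem (show 1 < 7 by norm_num)
  have b2 := bp_mem (show 2 < 7 by norm_num)
  have b3 := bp_mem (show 3 < 7 by norm_num)
  obtain ⟨p0, hp0, g0, e0⟩ := hstep hh cases0 cases_check0 b0 (by simp) (by simp)
  obtain ⟨p1, hp1, g1, e1⟩ := hstep g0 cases1 cases_check1 b1 (by simp [b0]) (by simpa using e0)
  obtain ⟨p2, hp2, g2, e2⟩ := hstep g1 cases2 cases_check2 b2 (by simp [b0, b1]) (by simpa using e1)
  obtain ⟨p3, hp3, g3, e3⟩ :=
    hstep g2 cases3 cases_check3 b3 (by simp [b0, b1, b2]) (by simpa using e2)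
  have hm : p3⁻¹ * (p2⁻¹ * (p1⁻¹ * (p0⁻¹ * h))) ∈ P 23 := by
    refine F4_le.1 fun f hf => e3 f ?_
    simp only [List.mem_cons, List.not_mem_nil, or_false, List.mem_append, List.mem_singleton] at hf ⊢
    tauto
  have := mul_mem hp0 (mul_mem hp1 (mul_mem hp2 (mul_mem hp3 hm)))
  simpa [mul_assoc] using this

theorem derived_le : ∀ m, m ≤ 23 → (derivedSeries H m).map H.subtype ≤ P (23 - m) := by
  intro m
  induction m with
  | zero =>
    intro _
    rw [derivedSeries_zero, ← MonoidHom.range_eq_map, Subgroup.range_subtype, H_eq]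
  | succ m ih =>
    intro hm
    rw [derivedSeries_succ, Subgroup.map_commutator]
    refine (Subgroup.commutator_mono (ih (by omega)) (ih (by omega))).trans ?_
    rw [show 23 - m = (23 - (m + 1)) + 1 by omega]
    exact P_succ_comm (by omega)

theorem derived_eq_bot : derivedSeries H 24 = ⊥ := by
  have h := derived_le 23 le_rfl
  have hz : P 0 ≤ Subgroup.zpowers z := by
    rw [P, Subgroup.closure_le, Set.insert_subset_iff]
    exact ⟨Subgroup.mem_zpowers z, by rintro _ ⟨j, hj, -⟩; omega⟩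
  rw [derivedSeries_succ, Subgroup.commutator_eq_bot_iff_le_centralizer]
  intro x hx
  rw [Subgroup.mem_centralizer_iff]
  intro y hy
  obtain ⟨a, ha⟩ := Subgroup.mem_zpowers_iff.1 (hz (h ⟨x, hx, rfl⟩))
  obtain ⟨b, hb⟩ := Subgroup.mem_zpowers_iff.1 (hz (h ⟨y, hy, rfl⟩))
  refine Subtype.ext ?_
  show (y : G) * x = x * y
  rw [show (x : G) = z ^ a from ha.symm, show (y : G) = z ^ b from hb.symm, ← zpow_add, ← zpow_add,
    add_comm]

end CfsgLib.Fi23Solv
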