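import Cfsg.Agent.Fi23Solv.Layers

/-!
The stabilizer of the set is solvable and its ninth derived subgroup is nontrivial.
-/

set_option autoImplicit false
set_option maxRecDepth 20000

namespace CfsgLib.Fi23Solv

open CfsgLib.CosetEnum CfsgLib.CosetEnum.Fi23
open scoped commutatorElement

local notation "G" => Cfsg.Spor.Fi23

/-- check of one lower orbit list -/
noncomputable def lowOK (fixed : List ℕ) (p : ℕ) (l : List (ℕ × List ℕ)) : Bool :=
  (l.all fun x => x.2.all (fun k => k.blt 23) && Nat.beq (tp (wtab x.2 (ti p))) x.1 &&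
    fixed.all fun b => Nat.beq (wtab x.2 (ti b)) (ti b)) &&
  allBelow (fun i => allBelow (fun j =>
    Nat.beq i j || !(Nat.beq ((l.getD i (0, [])).1) ((l.getD j (0, [])).1))) l.length) l.length

theorem low_step {fixed : List ℕ} {p : ℕ} (l : List (ℕ × List ℕ)) (hp : p ∈ basB)
    (hfix : ∀ b ∈ fixed, b ∈ basB) (h : lowOK fixed p l = true) :
    l.length * Nat.card (P 23 ⊓ Fix (p :: fixed) : Subgroup G) ≤
      Nat.card (P 23 ⊓ Fix fixed : Subgroup G) := by
  rw [lowOK, Bool.and_eq_true] at h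
  refine card_Fix_mul_le _ (fun i => (l.getD i (0, [])).1) (fun i hi => ?_) (fun i hi j hj e => ?_)
  · have hmem : l.getD i (0, []) ∈ l := by
      rw [List.getD_eq_getElem?_getD, List.getElem?_eq_getElem hi]; exact List.getElem_mem hi
    have hx := List.all_eq_true.1 h.1 _ hmem
    simp only [Bool.and_eq_true, List.all_eq_true, Nat.blt, Nat.ble_eq] at hx
    obtain ⟨⟨hlt, hpq⟩, hb⟩ := hx
    refine ⟨wval (l.getD i (0, [])).2, ⟨wval_mem_P hlt, fun b hb' => ?_⟩, ?_⟩
    · obtain ⟨hj, hji⟩ := ti_spec (basB_spec (hfix b hb')).1 (basB_spec (hfix b hb')).2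
      conv_lhs => rw [← hji]
      rw [(wtab_tab _ _ hj).2, Nat.eq_of_beq_eq_true (hb b hb'), hji]
    · obtain ⟨hj, hji⟩ := ti_spec (basB_spec hp).1 (basB_spec hp).2
      conv_lhs => rw [← hji]
      rw [(wtab_tab _ _ hj).2, Nat.eq_of_beq_eq_true hpq]
  · have := (Model.allBelow_iff _ _).1 ((Model.allBelow_iff _ _).1 h.2 i hi) j hj
    rw [Bool.or_eq_true, Bool.not_eq_true'] at this
    rcases this with h' | h'
    · exact Nat.eq_of_beq_eq_true h'
    · change (l.getD i (0, [])).1 = (l.getD j (0, [])).1 at e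
      rw [e, Nat.beq_refl] at h'
      exact Bool.noConfusion h'

theorem low_check :
    (lowOK [bp 3, bp 2, bp 1, bp 0] (bp 4) (orbLow.getD 0 []) &&
      lowOK [bp 4, bp 3, bp 2, bp 1, bp 0] (bp 5) (orbLow.getD 1 []) &&
      lowOK [bp 5, bp 4, bp 3, bp 2, bp 1, bp 0] (bp 6) (orbLow.getD 2 []) &&
      Nat.beq ((orbLow.getD 0 []).length) 8 && Nat.beq ((orbLow.getD 1 []).length) 36 &&
      Nat.beq ((orbLow.getD 2 []).length) 9) = true := by decide +kernel

theorem bp_mem {k : ℕ} (hk : k < 7) : bp k ∈ basB := by revert hk k; decide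

/-- the whole base -/
def baseR : List ℕ := [bp 6, bp 5, bp 4, bp 3, bp 2, bp 1, bp 0]

theorem mem_baseR {b : ℕ} (h : b ∈ baseR) : b ∈ basB := by
  revert b; decide

theorem z_mem_base : z ∈ Fix baseR := fun b hb =>
  z_fix (basB_spec (mem_baseR hb)).1 (basB_spec (mem_baseR hb)).2

theorem F4_le : Fix [bp 3, bp 2, bp 1, bp 0] ≤ P 23 ∧ Fix baseR = Subgroup.zpowers z := by
  classical
  have := finite_fi23
  set F := Fix [bp 3, bp 2, bp 1, bp 0] with hF
  have c := low_check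
  simp only [Bool.and_eq_true, Nat.beq_eq] at c
  obtain ⟨⟨⟨⟨⟨l4, l5⟩, l6⟩, n4⟩, n5⟩, n6⟩ := c
  have hm : ∀ (l : List ℕ), (∀ x ∈ l, x < 7) → ∀ b ∈ l.map bp, b ∈ basB := by
    intro l hl b hb
    obtain ⟨x, hx, rfl⟩ := List.mem_map.1 hb
    exact bp_mem (hl x hx)
  have h4 := low_step _ (bp_mem (show 4 < 7 by norm_num)) (hm [3, 2, 1, 0] (by decide)) l4
  have h5 := low_step _ (bp_mem (show 5 < 7 by norm_num)) (hm [4, 3, 2, 1, 0] (by decide)) l5
  have h6 := low_step _ (bp_mem (show 6 < 7 by norm_num)) (hm [5, 4, 3, 2, 1, 0] (by decide)) l6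
  rw [n4] at h4; rw [n5] at h5; rw [n6] at h6
  have hz3 : 3 ≤ Nat.card (Subgroup.zpowers z) := by
    rw [Nat.card_zpowers]
    have h0 : orderOf z ≠ 0 := (orderOf_pos z).ne'
    have h1 : orderOf z ≠ 1 := fun h => z_spec.2.1 (orderOf_eq_one_iff.1 h)
    have h2 : orderOf z ≠ 2 := fun h => z_spec.2.2 (by rw [← pow_two, ← h, pow_orderOf_eq_one])
    omega
  have hsub : Subgroup.zpowers z ≤ P 23 ⊓ Fix baseR :=
    Subgroup.zpowers_le.2 ⟨z_mem_P 23, z_mem_base⟩
  have e4 : Nat.card F ≤ 7776 := card_F4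
  have hle : Nat.card (P 23 ⊓ F : Subgroup G) ≤ Nat.card F := Subgroup.card_le_of_le inf_le_right
  have hz := Subgroup.card_le_of_le hsub
  change _ * Nat.card (P 23 ⊓ Fix baseR : Subgroup G) ≤ _ at h6
  change _ * _ ≤ Nat.card (P 23 ⊓ F : Subgroup G) at h4
  have eF : P 23 ⊓ F = F := Subgroup.eq_of_le_of_card_ge inf_le_right (by
    simp only [List.map] at h4 h5 h6
    omega)
  have hFP : F ≤ P 23 := inf_eq_right.1 eF
  refine ⟨hFP, ?_⟩
  have hbF : Fix baseR ≤ F := fun g hg b hb => hg b (by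
    simp only [baseR, List.mem_cons] at hb ⊢
    tauto)
  have e7 : P 23 ⊓ Fix baseR = Fix baseR := inf_eq_right.2 (hbF.trans hFP)
  rw [← e7]
  refine (Subgroup.eq_of_le_of_card_ge hsub ?_).symm
  simp only [List.map] at h4 h5 h6
  omega

theorem basB_baseR {b : ℕ} (h : b ∈ baseR) : b ∈ basB := mem_baseR h

theorem conj_z {a : G} (ha : a ∈ H) : a * z * a⁻¹ ∈ Subgroup.zpowers z := by
  rw [← F4_le.2]
  intro b hb
  have hb' := basB_spec (mem_baseR hb)
  rw [act_mul, act_mul, z_fix (act_lt _ hb'.1) (by rw [inT_act (inv_mem ha) hb'.1, hb'.2]),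
    act_act_inv]

theorem conj_check : allBelow (fun k => allBelow (fun j =>
    ((conjW.getD k []).getD j []).all (fun x => x.blt k) &&
    sameB [k, j] ((conjW.getD k []).getD j [] ++ [k])) k) 23 = true := by decide +kernel

theorem conj_e {k j : ℕ} (hk : k < 23) (hj : j < k) : e k * e j * (e k)⁻¹ ∈ P k := by
  have h := (Model.allBelow_iff _ _).1 ((Model.allBelow_iff _ _).1 conj_check k hk) j hj
  rw [Bool.and_eq_true] at h
  set w := (conjW.getD k []).getD j []
  have hw : wval w ∈ P k := wval_mem_P fun x hx => by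
    have := List.all_eq_true.1 h.1 x hx
    simpa [Nat.blt, Nat.ble_eq] using this
  have hd : (wval (w ++ [k]))⁻¹ * wval [k, j] ∈ Subgroup.zpowers z := by
    rw [← F4_le.2]
    exact fun b hb => sameB_spec h.2 (mem_baseR hb)
  have ev : wval (w ++ [k]) = wval w * e k := by simp [wval]
  have ev2 : wval [k, j] = e k * e j := by simp [wval]
  rw [ev, ev2] at hd
  set u := (wval w * e k)⁻¹ * (e k * e j) with hu
  have hkey : e k * e j * (e k)⁻¹ = wval w * (e k * u * (e k)⁻¹) := by rw [hu]; group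
  rw [hkey]
  refine mul_mem hw ?_
  obtain ⟨n, hn⟩ := Subgroup.mem_zpowers_iff.1 hd
  have h2 : e k * u * (e k)⁻¹ = (e k * z * (e k)⁻¹) ^ n := by rw [conj_zpow, hn]
  rw [h2]
  exact zpow_mem (Subgroup.zpowers_le.2 (z_mem_P k) (conj_z (e_mem k))) n

theorem e_normalizes {k : ℕ} (hk : k < 23) :
    (P k).map (MulAut.conj (e k)).toMonoidHom = P k := by
  have := finite_fi23
  refine Subgroup.eq_of_le_of_card_ge ?_ ?_
  · rw [P, MonoidHom.map_closure, Subgroup.closure_le]
    rintro _ ⟨g, hg, rfl⟩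
    rcases hg with rfl | ⟨j, hj, rfl⟩
    · exact Subgroup.zpowers_le.2 (z_mem_P k) (conj_z (e_mem k))
    · exact conj_e hk hj
  · rw [Nat.card_congr (Subgroup.equivMapOfInjective (P k) (MulAut.conj (e k)).toMonoidHom
      (MulAut.conj (e k)).injective).toEquiv]

theorem P_succ_comm {k : ℕ} (hk : k < 23) : ⁅P (k + 1), P (k + 1)⁆ ≤ P k := by
  classical
  have hc : ∀ (n : ℤ) (g : G), g ∈ P k → e k ^ n * g * (e k ^ n)⁻¹ ∈ P k := by
    intro n g hg
    have hmem : e k ∈ Subgroup.normalizer ((P k : Subgroup G) : Set G) := by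
      rw [Subgroup.mem_normalizer_iff]
      intro x
      constructor
      · intro hx
        rw [← e_normalizes hk]
        exact ⟨x, hx, rfl⟩
      · intro hx
        rw [← e_normalizes hk] at hx
        obtain ⟨y, hy, hyx⟩ := hx
        have : y = x := (MulAut.conj (e k)).injective hyx
        exact this ▸ hy
    exact (Subgroup.mem_normalizer_iff.1 (zpow_mem hmem n) g).1 hg
  have hdec : ∀ x ∈ P (k + 1), ∃ p ∈ P k, ∃ n : ℤ, x = p * e k ^ n := by
    intro x hx
    rw [P] at hx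
    induction hx using Subgroup.closure_induction with
    | mem x hx =>
      rcases hx with rfl | ⟨j, hj, rfl⟩
      · exact ⟨z, z_mem_P k, 0, by simp⟩
      · rcases Nat.lt_succ_iff_lt_or_eq.1 hj with h | h
        · exact ⟨e j, e_mem_P h, 0, by simp⟩
        · exact ⟨1, one_mem _, 1, by simp [h]⟩
    | one => exact ⟨1, one_mem _, 0, by simp⟩
    | mul x y _ _ hx hy =>
      obtain ⟨p, hp, n, rfl⟩ := hx
      obtain ⟨q, hq, m, rfl⟩ := hy
      exact ⟨p * (e k ^ n * q * (e k ^ n)⁻¹), mul_mem hp (hc n q hq), n + m, by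
        rw [zpow_add]; group⟩
    | inv x _ hx =>
      obtain ⟨p, hp, n, rfl⟩ := hx
      exact ⟨e k ^ (-n) * p⁻¹ * (e k ^ (-n))⁻¹, hc _ _ (inv_mem hp), -n, by group⟩
  rw [Subgroup.commutator_le]
  intro x hx y hy
  obtain ⟨p, hp, n, rfl⟩ := hdec x hx
  obtain ⟨q, hq, m, rfl⟩ := hdec y hy
  have hh : ⁅p * e k ^ n, q * e k ^ m⁆ =
      p * (e k ^ n * q * (e k ^ n)⁻¹) * (e k ^ m * p⁻¹ * (e k ^ m)⁻¹) * q⁻¹ := by
    rw [commutatorElement_def]
    group
  rw [hh]
  exact mul_mem (mul_mem (mul_mem hp (hc n q hq)) (hc m _ (inv_mem hp))) (inv_mem hq)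

end CfsgLib.Fi23Solv
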